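import Mathlib
import Cfsg.Agent.S2352

set_option autoImplicit false

namespace Cfsg.Agent.Lib.Helper39

open Polynomial
open scoped commutatorElement

/-- `w` is refuted in `K` by a substitution of commutators. -/
def NC (w : FreeGroup ℕ) (K : Type*) [Group K] : Prop :=
  ∃ a b : ℕ → K, FreeGroup.lift (fun i => ⁅a i, b i⁆) w ≠ 1

theorem NC.map {w : FreeGroup ℕ} {K K' : Type*} [Group K] [Group K'] (h : NC w K) (φ : K →* K')
    (hφ : Function.Injective φ) : NC w K' := by
  obtain ⟨a, b, hab⟩ := h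
  refine ⟨fun i => φ (a i), fun i => φ (b i), ?_⟩
  have : (fun i => ⁅φ (a i), φ (b i)⁆) = fun i => φ ⁅a i, b i⁆ := by
    funext i; rw [map_commutatorElement]
  rw [this, ← map_lift]
  intro h1
  exact hab (hφ (by rw [h1, map_one]))

theorem NC.not_law {w : FreeGroup ℕ} {K : Type*} [Group K] (h : NC w K) :
    ∃ f : ℕ → K, FreeGroup.lift f w ≠ 1 := by
  obtain ⟨a, b, hab⟩ := h
  exact ⟨_, hab⟩

theorem NC.not_law_commutator {w : FreeGroup ℕ} {K : Type*} [Group K] (h : NC w K) :
    ∃ f : ℕ → commutator K, FreeGroup.lift f w ≠ 1 := by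
  obtain ⟨a, b, hab⟩ := h
  refine ⟨fun i => ⟨⁅a i, b i⁆, Subgroup.commutator_mem_commutator (Subgroup.mem_top _)
    (Subgroup.mem_top _)⟩, ?_⟩
  intro h1
  apply hab
  have := congrArg (commutator K).subtype h1
  rw [map_lift, map_one] at this
  exact this

/-- If `⁅w, x_k⁆` is not a law in `K`, then `w` is not a law in `K / Z(K)`. -/
theorem not_law_quotient_center {w : FreeGroup ℕ} (k : ℕ) {K : Type*} [Group K]
    (h : ∃ f : ℕ → K, FreeGroup.lift f ⁅w, FreeGroup.of k⁆ ≠ 1) :
    ∃ f : ℕ → K ⧸ Subgroup.center K, FreeGroup.lift f w ≠ 1 := by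
  obtain ⟨f, hf⟩ := h
  refine ⟨fun i => QuotientGroup.mk' _ (f i), ?_⟩
  intro h1
  apply hf
  rw [← map_lift] at h1
  have hc : FreeGroup.lift f w ∈ Subgroup.center K := by simpa using h1
  rw [map_commutatorElement, commutatorElement_eq_one_iff_mul_comm]
  exact ((Subgroup.mem_center_iff.mp hc) _).symm

theorem not_law_of_mulEquiv {w : FreeGroup ℕ} {K K' : Type*} [Group K] [Group K'] (e : K ≃* K')
    (h : ∃ f : ℕ → K', FreeGroup.lift f w ≠ 1) : ∃ f : ℕ → K, FreeGroup.lift f w ≠ 1 := by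
  obtain ⟨f, hf⟩ := h
  refine ⟨fun i => e.symm (f i), ?_⟩
  intro h1
  apply hf
  have := congrArg e h1
  rw [← MulEquiv.coe_toMonoidHom, map_lift, map_one] at this
  simpa using this

theorem lift_congr_of_fresh {K : Type*} [Group K] (f f' : ℕ → K) (w : FreeGroup ℕ)
    (h : ∀ x ∈ w.toWord, f x.1 = f' x.1) : FreeGroup.lift f w = FreeGroup.lift f' w := by
  rw [lift_eq_prod_toWord, lift_eq_prod_toWord]
  congr 1
  apply List.map_congr_left
  intro x hx
  simp only [letterVal, h x hx]

/-- For a nontrivial word `w` there is a generator `x_k` with `⁅w, x_k⁆ ≠ 1`. -/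
theorem exists_commutator_ne_one (w : FreeGroup ℕ) (hw : w ≠ 1) :
    ∃ k : ℕ, ⁅w, FreeGroup.of k⁆ ≠ 1 := by
  classical
  obtain ⟨N, hN⟩ := Cfsg.Agent.S2352.result w hw
  obtain ⟨f, hf⟩ := hN (max N 4) (le_max_left _ _)
  obtain ⟨k, hk⟩ := Infinite.exists_notMem_finset (w.toWord.map Prod.fst).toFinset
  refine ⟨k, ?_⟩
  have hcen : FreeGroup.lift f w ∉ Subgroup.center (alternatingGroup (Fin (max N 4))) := by
    rw [alternatingGroup.center_eq_bot (by simp)]
    simpa using hf
  rw [Subgroup.mem_center_iff] at hcen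
  push Not at hcen
  obtain ⟨y, hy⟩ := hcen
  intro h1
  have h2 := congrArg (FreeGroup.lift (Function.update f k y)) h1
  rw [map_commutatorElement, map_one, commutatorElement_eq_one_iff_mul_comm,
    FreeGroup.lift_apply_of, Function.update_self] at h2
  have h3 : FreeGroup.lift (Function.update f k y) w = FreeGroup.lift f w := by
    apply lift_congr_of_fresh
    intro x hx
    have : x.1 ≠ k := by
      rintro rfl
      apply hk
      simp only [List.mem_toFinset, List.mem_map]
      exact ⟨x, hx, rfl⟩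
    rw [Function.update_of_ne this]
  rw [h3] at h2
  exact hy h2.symm

end Cfsg.Agent.Lib.Helper39
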