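import Mathlib
import Cfsg.Agent.Lib.Helper39.Laws.Basic

set_option autoImplicit false

namespace Cfsg.Agent.Lib.Helper39

open Polynomial Cfsg.Agent.S2353
open scoped commutatorElement

/-- the swap matrix in `GL₂`. -/
def swapJ {R : Type*} [CommRing R] : Matrix.GeneralLinearGroup (Fin 2) R :=
  ⟨!![0, 1; 1, 0], !![0, 1; 1, 0], by simp [Matrix.one_fin_two], by simp [Matrix.one_fin_two]⟩

theorem comm_lo_swapJ {R : Type*} [CommRing R] (p : R) : ⁅lo p, swapJ⁆ = lo p * up (-p) := by
  rw [commutatorElement_def, lo_inv]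
  apply Units.ext
  have : (swapJ : Matrix.GeneralLinearGroup (Fin 2) R)⁻¹ = swapJ := by apply Units.ext; rfl
  rw [this]
  simp [lo, up, swapJ, add_comm]

theorem key2 {F : Type*} [Field F] (P : ℕ → F[X]) (D : ℕ → ℕ) (hpos : ∀ i, 0 < (P i).degree)
    (hdiff : ∀ i j, i ≠ j → 0 < (P i - P j).degree) (hD : ∀ i, (P i).natDegree ≤ D i)
    (w : FreeGroup ℕ) (hw : w ≠ 1) :
    ∃ d : F[X], d ≠ 0 ∧ d.natDegree ≤ (w.toWord.map (fun x => D x.1 + D x.1)).sum ∧
      ∀ t : F, d.eval t ≠ 0 →
        FreeGroup.lift (fun i => ⁅lo ((P i).eval t), (swapJ : Matrix.GeneralLinearGroup (Fin 2) F)⁆) w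
          ≠ 1 := by
  classical
  let _ := glAction (Fin 2) F[X]
  set U : ℕ → Matrix.GeneralLinearGroup (Fin 2) F[X] := fun i => lo (P i) with hU
  set T : ℕ → Matrix.GeneralLinearGroup (Fin 2) F[X] := fun i => up (-P i) with hT
  set z₀ : Fin 2 → F[X] := ![1, 1] with hz₀
  have hneg : ∀ i, 0 < (-P i).degree := fun i => by rw [degree_neg]; exact hpos i
  have hpp := pingpong_UT U T (Lead (1 : Fin 2)) (Lead (0 : Fin 2)) z₀
    (fun i z hz => (dominant_lo _ (hpos i)).mulVec_mem hz)
    (fun i z hz => by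
      rw [hU, lo_inv]; exact (dominant_lo _ (hneg i)).mulVec_mem hz)
    (fun i j hij z hz => by
      rw [hU]; simp only [lo_inv, lo_mul]
      have : -P i + P j = P j - P i := by ring
      rw [this]
      exact (dominant_lo _ (hdiff j i hij.symm)).mulVec_mem hz)
    (fun i z hz => (dominant_up _ (hneg i)).mulVec_mem hz)
    (fun i z hz => by
      rw [hT, up_inv, neg_neg]; exact (dominant_up _ (hpos i)).mulVec_mem hz)
    (fun i j hij z hz => by
      rw [hT]; simp only [up_inv, up_mul, neg_neg]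
      have : -P i + P j = P j - P i := by ring
      rw [this]
      exact (dominant_up _ (hdiff j i hij.symm)).mulVec_mem hz)
    (fun i => base_up _ (hneg i))
    (fun i => by rw [hU, lo_inv]; exact base_lo _ (hneg i))
    w hw
  set W : Matrix.GeneralLinearGroup (Fin 2) F[X] := FreeGroup.lift (fun i => U i * T i) w with hW
  have hWz : W • z₀ = (W : Matrix (Fin 2) (Fin 2) F[X]).mulVec z₀ := rfl
  have hv0 : (W : Matrix (Fin 2) (Fin 2) F[X]).mulVec z₀ 0 =
      (W : Matrix (Fin 2) (Fin 2) F[X]) 0 0 + (W : Matrix (Fin 2) (Fin 2) F[X]) 0 1 := by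
    simp [hz₀, Matrix.mulVec, dotProduct]
  have hv1 : (W : Matrix (Fin 2) (Fin 2) F[X]).mulVec z₀ 1 =
      (W : Matrix (Fin 2) (Fin 2) F[X]) 1 0 + (W : Matrix (Fin 2) (Fin 2) F[X]) 1 1 := by
    simp [hz₀, Matrix.mulVec, dotProduct]
  have mono : ∀ {M : Matrix (Fin 2) (Fin 2) F[X]} {a b : ℕ}, EntryDegLE M a → a ≤ b →
      EntryDegLE M b := fun h hab i j => le_trans (h i j) hab
  have hdeg : EntryDegLE (W : Matrix (Fin 2) (Fin 2) F[X])
      ((w.toWord.map (fun x => D x.1 + D x.1)).sum) := by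
    refine entryDegLE_lift (fun i => U i * T i) (fun i => D i + D i) ?_ ?_ w
    · intro i
      rw [Units.val_mul]
      refine EntryDegLE.mul (mono (entry_lo (P i)) (hD i)) (mono (entry_up (-P i)) ?_)
      rw [natDegree_neg]; exact hD i
    · intro i
      rw [mul_inv_rev, Units.val_mul, hU, hT, lo_inv, up_inv, neg_neg]
      refine EntryDegLE.mul (mono (entry_up (P i)) (hD i)) (mono (entry_lo (-P i)) ?_)
      rw [natDegree_neg]; exact hD i
  refine ⟨(W : Matrix (Fin 2) (Fin 2) F[X]) 0 0 + (W : Matrix (Fin 2) (Fin 2) F[X]) 0 1 -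
      (W : Matrix (Fin 2) (Fin 2) F[X]) 1 0 - (W : Matrix (Fin 2) (Fin 2) F[X]) 1 1, ?_, ?_, ?_⟩
  · intro h0
    have heq : (W : Matrix (Fin 2) (Fin 2) F[X]).mulVec z₀ 0 =
        (W : Matrix (Fin 2) (Fin 2) F[X]).mulVec z₀ 1 := by
      rw [hv0, hv1]; linear_combination h0
    rw [hWz] at hpp
    rcases hpp with h | h
    · have := h.2 0 (by decide)
      rw [heq] at this
      exact lt_irrefl _ this
    · have := h.2 1 (by decide)
      rw [heq] at this
      exact lt_irrefl _ this
  · refine le_trans (natDegree_sub_le _ _) (max_le ?_ (hdeg 1 1))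
    refine le_trans (natDegree_sub_le _ _) (max_le ?_ (hdeg 1 0))
    exact le_trans (natDegree_add_le _ _) (max_le (hdeg 0 0) (hdeg 0 1))
  · intro t ht h1
    apply ht
    have h2 : Matrix.GeneralLinearGroup.map (evalRingHom t) W = 1 := by
      rw [← h1, hW, map_lift]
      congr 2
      funext i
      rw [comm_lo_swapJ]
      apply Units.ext
      ext a b
      fin_cases a <;> fin_cases b <;>
        simp [hU, hT, lo, up, Matrix.GeneralLinearGroup.map, Matrix.mul_apply, Fin.sum_univ_two]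
    have h3 : ∀ a b, ((W : Matrix (Fin 2) (Fin 2) F[X]) a b).eval t =
        (1 : Matrix (Fin 2) (Fin 2) F) a b := by
      intro a b
      have := congrArg (fun g : Matrix.GeneralLinearGroup (Fin 2) F =>
        (g : Matrix (Fin 2) (Fin 2) F) a b) h2
      simpa using this
    simp only [eval_sub, eval_add, h3]
    simp

/-- `w` is refuted by commutators in `GL₂(F)` for all large enough finite fields `F`. -/
theorem NC_GL2 (w : FreeGroup ℕ) (hw : w ≠ 1) :
    ∃ B : ℕ, ∀ (F : Type*) [Field F] [Fintype F], B ≤ Fintype.card F →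
      NC w (Matrix.GeneralLinearGroup (Fin 2) F) := by
  refine ⟨(w.toWord.map (fun x => (x.1 + 1) + (x.1 + 1))).sum + 1, ?_⟩
  intro F _ _ hB
  obtain ⟨d, hd0, hdeg, hev⟩ := key2 (F := F) (fun i => X ^ (i + 1)) (fun i => i + 1)
    (fun i => deg_pow i)
    (fun i j hij => by
      have := deg_diff' (F := F) i j hij
      rwa [← sub_eq_add_neg] at this)
    (fun i => by simp) w hw
  obtain ⟨t, ht⟩ := exists_eval_ne_zero_of_natDegree_lt_card d hd0 (by
    rw [Cardinal.mk_fintype]
    exact_mod_cast lt_of_le_of_lt hdeg (Nat.lt_of_succ_le hB))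
  exact ⟨_, _, hev t ht⟩

/-- `w` is refuted by commutators in all large enough symmetric groups. -/
theorem NC_perm (w : FreeGroup ℕ) (hw : w ≠ 1) :
    ∃ M : ℕ, ∀ m : ℕ, M ≤ m → NC w (Equiv.Perm (Fin m)) := by
  classical
  obtain ⟨B, hB⟩ := NC_GL2.{0} w hw
  obtain ⟨p, hpB, hp⟩ := Nat.exists_infinite_primes B
  have : Fact p.Prime := ⟨hp⟩
  have hnc := hB (ZMod p) (by rw [ZMod.card]; exact hpB)
  set H := Matrix.GeneralLinearGroup (Fin 2) (ZMod p) with hH
  have : Finite H := inferInstance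
  have : Fintype H := Fintype.ofFinite H
  refine ⟨Fintype.card H, ?_⟩
  intro m hm
  have hcard : Fintype.card H ≤ Fintype.card (Fin m) := by rwa [Fintype.card_fin]
  obtain ⟨ι⟩ := Function.Embedding.nonempty_of_card_le hcard
  let e : H ≃ Subtype (fun x => x ∈ Set.range ι) := Equiv.ofInjective ι ι.injective
  refine hnc.map ((Equiv.Perm.extendDomainHom e).comp (MulAction.toPermHom H H)) ?_
  exact (Equiv.Perm.extendDomainHom_injective e).comp MulAction.toPerm_injective

end Cfsg.Agent.Lib.Helper39
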