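import Mathlib
import Cfsg.Prelude.Def_Classical
import Cfsg.Agent.Lib.Helper39.Laws.GL2

set_option autoImplicit false

namespace Cfsg.Agent.Lib.Helper39

open scoped commutatorElement Matrix

section GE

variable {ι κ R : Type*} [Fintype ι] [Fintype κ] [DecidableEq ι] [DecidableEq κ] [CommRing R]

/-- Embedding of `Matrix κ κ R` in `Matrix ι ι R` attached to `B`, `Φ` with `Φ * B = 1`. -/
def geHom (B : Matrix ι κ R) (Φ : Matrix κ ι R) (h : Φ * B = 1) :
    Matrix κ κ R →* Matrix ι ι R where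
  toFun M := 1 + B * (M - 1) * Φ
  map_one' := by simp
  map_mul' M N := by
    have key : B * (M - 1) * Φ * (B * (N - 1) * Φ) = B * ((M - 1) * (N - 1)) * Φ := by
      simp only [Matrix.mul_assoc]
      rw [← Matrix.mul_assoc Φ B, h, Matrix.one_mul]
    have e : M * N - 1 = (M - 1) + (N - 1) + (M - 1) * (N - 1) := by noncomm_ring
    rw [e, Matrix.mul_add, Matrix.mul_add, Matrix.add_mul, Matrix.add_mul, ← key]
    noncomm_ring

theorem geHom_apply (B : Matrix ι κ R) (Φ : Matrix κ ι R) (h : Φ * B = 1) (M : Matrix κ κ R) :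
    geHom B Φ h M = 1 + B * (M - 1) * Φ := rfl

theorem geHom_injective (B : Matrix ι κ R) (Φ : Matrix κ ι R) (h : Φ * B = 1) :
    Function.Injective (geHom B Φ h) := by
  have key : ∀ M, Φ * (geHom B Φ h M) * B = M := by
    intro M
    rw [geHom_apply, Matrix.mul_add, Matrix.add_mul, Matrix.mul_one, h]
    have : Φ * (B * (M - 1) * Φ) * B = (Φ * B) * (M - 1) * (Φ * B) := by
      simp only [Matrix.mul_assoc]
    rw [this, h]
    simp
  intro M N hMN
  rw [← key M, ← key N, hMN]

theorem geHom_mulVec (B : Matrix ι κ R) (Φ : Matrix κ ι R) (h : Φ * B = 1) (M : Matrix κ κ R)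
    (v : ι → R) : geHom B Φ h M *ᵥ v = v + B *ᵥ ((M - 1) *ᵥ (Φ *ᵥ v)) := by
  rw [geHom_apply, Matrix.add_mulVec, Matrix.one_mulVec, ← Matrix.mulVec_mulVec,
    ← Matrix.mulVec_mulVec]

/-- The version for general linear groups. -/
def geGL (B : Matrix ι κ R) (Φ : Matrix κ ι R) (h : Φ * B = 1) :
    Matrix.GeneralLinearGroup κ R →* Matrix.GeneralLinearGroup ι R :=
  ((geHom B Φ h).comp (Units.coeHom _)).toHomUnits

theorem geGL_coe (B : Matrix ι κ R) (Φ : Matrix κ ι R) (h : Φ * B = 1)
    (g : Matrix.GeneralLinearGroup κ R) :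
    (geGL B Φ h g : Matrix ι ι R) = geHom B Φ h (g : Matrix κ κ R) := rfl

theorem geGL_injective (B : Matrix ι κ R) (Φ : Matrix κ ι R) (h : Φ * B = 1) :
    Function.Injective (geGL B Φ h) := by
  intro g g' hg
  apply Units.ext
  apply geHom_injective B Φ h
  rw [← geGL_coe, ← geGL_coe, hg]

theorem exists_GL_embedding (e : κ ↪ ι) :
    ∃ φ : Matrix.GeneralLinearGroup κ R →* Matrix.GeneralLinearGroup ι R,
      Function.Injective φ := by
  have h : (1 : Matrix ι ι R).submatrix e id * (1 : Matrix ι ι R).submatrix id e = 1 := by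
    rw [← Matrix.submatrix_mul _ _ e id e Function.bijective_id, Matrix.one_mul,
      Matrix.submatrix_one e e.injective]
  exact ⟨geGL _ _ h, geGL_injective _ _ h⟩

end GE

section Block

variable {K ι κ R : Type*} [Monoid K] [Fintype ι] [Fintype κ] [DecidableEq ι] [DecidableEq κ]
  [CommRing R]

/-- block diagonal sum of two matrix representations. -/
def blockHom (φ : K →* Matrix ι ι R) (ψ : K →* Matrix κ κ R) :
    K →* Matrix (ι ⊕ κ) (ι ⊕ κ) R where
  toFun k := Matrix.fromBlocks (φ k) 0 0 (ψ k)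
  map_one' := by simp [Matrix.fromBlocks_one]
  map_mul' a b := by simp [Matrix.fromBlocks_multiply]

theorem blockHom_apply (φ : K →* Matrix ι ι R) (ψ : K →* Matrix κ κ R) (k : K) :
    blockHom φ ψ k = Matrix.fromBlocks (φ k) 0 0 (ψ k) := rfl

theorem blockHom_mulVec (φ : K →* Matrix ι ι R) (ψ : K →* Matrix κ κ R) (k : K)
    (v : ι ⊕ κ → R) :
    blockHom φ ψ k *ᵥ v = Sum.elim (φ k *ᵥ (v ∘ Sum.inl)) (ψ k *ᵥ (v ∘ Sum.inr)) := by
  rw [blockHom_apply, Matrix.fromBlocks_mulVec]
  simp

theorem blockHom_injective_left (φ : K →* Matrix ι ι R) (ψ : K →* Matrix κ κ R)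
    (hφ : Function.Injective φ) : Function.Injective (blockHom φ ψ) := by
  intro a b hab
  rw [blockHom_apply, blockHom_apply, Matrix.fromBlocks_inj] at hab
  exact hφ hab.1

theorem blockHom_injective_right (φ : K →* Matrix ι ι R) (ψ : K →* Matrix κ κ R)
    (hψ : Function.Injective ψ) : Function.Injective (blockHom φ ψ) := by
  intro a b hab
  rw [blockHom_apply, blockHom_apply, Matrix.fromBlocks_inj] at hab
  exact hψ hab.2.2.2

/-- inverse transpose. -/
def invT : Matrix.GeneralLinearGroup ι R →* Matrix ι ι R where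
  toFun g := ((g⁻¹ : Matrix.GeneralLinearGroup ι R) : Matrix ι ι R)ᵀ
  map_one' := by simp
  map_mul' a b := by
    rw [mul_inv_rev, Units.val_mul, Matrix.transpose_mul]

theorem invT_apply (g : Matrix.GeneralLinearGroup ι R) :
    invT g = ((g⁻¹ : Matrix.GeneralLinearGroup ι R) : Matrix ι ι R)ᵀ := rfl

/-- `g ↦ diag(g, g⁻ᵀ)`. -/
def lamHom : Matrix.GeneralLinearGroup ι R →* Matrix (ι ⊕ ι) (ι ⊕ ι) R :=
  blockHom (Units.coeHom _) invT

theorem lamHom_injective : Function.Injective (lamHom (ι := ι) (R := R)) :=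
  blockHom_injective_left _ _ Units.val_injective

theorem lamHom_dot (g : Matrix.GeneralLinearGroup ι R) (x y : ι → R) :
    ((g : Matrix ι ι R) *ᵥ x) ⬝ᵥ (invT g *ᵥ y) = x ⬝ᵥ y := by
  rw [invT_apply, Matrix.dotProduct_mulVec, Matrix.vecMul_transpose, Matrix.mulVec_mulVec,
    ← Units.val_mul, inv_mul_cancel, Units.val_one, Matrix.one_mulVec]

theorem lamHom_mem_symplectic (g : Matrix.GeneralLinearGroup ι R) :
    lamHom g ∈ Matrix.symplecticGroup ι R := by
  rw [SymplecticGroup.mem_iff, lamHom, blockHom_apply, Matrix.J, Matrix.fromBlocks_multiply,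
    Matrix.fromBlocks_transpose, Matrix.fromBlocks_multiply, invT_apply]
  simp only [Units.coeHom_apply, Matrix.mul_zero, Matrix.zero_mul, add_zero, zero_add,
    Matrix.mul_neg, Matrix.mul_one, Matrix.transpose_zero, Matrix.transpose_transpose,
    Matrix.neg_mul]
  rw [← Units.val_mul, mul_inv_cancel, ← Matrix.transpose_mul, ← Units.val_mul, mul_inv_cancel]
  simp

end Block

end Cfsg.Agent.Lib.Helper39
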