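import Mathlib
import Cfsg.Prelude.Def_Classical
import Cfsg.Agent.Lib.Helper39.Laws.Embed

set_option autoImplicit false

namespace Cfsg.Agent.Lib.Helper39

open scoped commutatorElement Matrix

section Orth

variable {K : Type*} [Group K] {ι : Type} [Fintype ι] [DecidableEq ι] {F : Type*} [Field F]

theorem NC_isometryGroup (Q : (ι → F) → F) (Φ : K →* Matrix ι ι F)
    (hinj : Function.Injective Φ) (hQ : ∀ k u, Q (Φ k *ᵥ u) = Q u) {w : FreeGroup ℕ}
    (h : NC w K) : NC w (Cfsg.isometryGroup F Q) := by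
  refine h.map (Φ.toHomUnits.codRestrict (Cfsg.isometryGroup F Q) (fun k u _ => hQ k u)) ?_
  intro a b hab
  apply hinj
  have := congrArg (fun x : Cfsg.isometryGroup F Q =>
    ((x : Matrix.GeneralLinearGroup ι F) : Matrix ι ι F)) hab
  exact this

theorem not_law_POmega (Q : (ι → F) → F) {w : FreeGroup ℕ} (k : ℕ)
    (h : NC ⁅w, FreeGroup.of k⁆ (Cfsg.isometryGroup F Q)) :
    ∃ f : ℕ → Cfsg.POmega F Q, FreeGroup.lift f w ≠ 1 :=
  not_law_quotient_center k h.not_law_commutator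

end Orth

section Forms

variable {F : Type*} [Field F] (m : ℕ)

theorem quadFormPlus_eq (v : Fin m ⊕ Fin m → F) :
    Cfsg.quadFormPlus m F v = (v ∘ Sum.inl) ⬝ᵥ (v ∘ Sum.inr) := rfl

theorem quadFormPlus_lam (g : Matrix.GeneralLinearGroup (Fin m) F) (v : Fin m ⊕ Fin m → F) :
    Cfsg.quadFormPlus m F (lamHom g *ᵥ v) = Cfsg.quadFormPlus m F v := by
  rw [quadFormPlus_eq, quadFormPlus_eq, lamHom, blockHom_mulVec]
  exact lamHom_dot g _ _

theorem quadFormOdd_eq (v : Unit ⊕ (Fin m ⊕ Fin m) → F) :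
    Cfsg.quadFormOdd m F v = v (Sum.inl ()) ^ 2 + Cfsg.quadFormPlus m F (v ∘ Sum.inr) := rfl

theorem quadFormOdd_lam (g : Matrix.GeneralLinearGroup (Fin m) F)
    (v : Unit ⊕ (Fin m ⊕ Fin m) → F) :
    Cfsg.quadFormOdd m F (blockHom (1 : _ →* Matrix Unit Unit F) lamHom g *ᵥ v) =
      Cfsg.quadFormOdd m F v := by
  rw [quadFormOdd_eq, quadFormOdd_eq, blockHom_mulVec]
  have h1 : (Sum.elim (((1 : Matrix.GeneralLinearGroup (Fin m) F →* Matrix Unit Unit F) g) *ᵥ
      (v ∘ Sum.inl)) (lamHom g *ᵥ (v ∘ Sum.inr))) ∘ Sum.inr = lamHom g *ᵥ (v ∘ Sum.inr) := by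
    funext i; rfl
  rw [h1, quadFormPlus_lam]
  simp

theorem quadFormMinus_eq (a b : F) (v : (Fin m ⊕ Fin m) ⊕ Fin 2 → F) :
    Cfsg.quadFormMinus m F a b v = Cfsg.quadFormPlus m F (v ∘ Sum.inl) +
      (v (.inr 0) ^ 2 + a * v (.inr 0) * v (.inr 1) + b * v (.inr 1) ^ 2) := rfl

theorem quadFormMinus_lam (a b : F) (g : Matrix.GeneralLinearGroup (Fin m) F)
    (v : (Fin m ⊕ Fin m) ⊕ Fin 2 → F) :
    Cfsg.quadFormMinus m F a b (blockHom lamHom (1 : _ →* Matrix (Fin 2) (Fin 2) F) g *ᵥ v) =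
      Cfsg.quadFormMinus m F a b v := by
  rw [quadFormMinus_eq, quadFormMinus_eq, blockHom_mulVec]
  have h1 : (Sum.elim (lamHom g *ᵥ (v ∘ Sum.inl))
      (((1 : Matrix.GeneralLinearGroup (Fin m) F →* Matrix (Fin 2) (Fin 2) F) g) *ᵥ
      (v ∘ Sum.inr))) ∘ Sum.inl = lamHom g *ᵥ (v ∘ Sum.inl) := by
    funext i; rfl
  rw [h1, quadFormPlus_lam]
  simp

variable {m}

theorem not_law_POmegaPlus {w : FreeGroup ℕ} (k : ℕ)
    (h : NC ⁅w, FreeGroup.of k⁆ (Matrix.GeneralLinearGroup (Fin m) F)) :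
    ∃ f : ℕ → Cfsg.POmega F (Cfsg.quadFormPlus m F), FreeGroup.lift f w ≠ 1 :=
  not_law_POmega _ k (NC_isometryGroup _ lamHom lamHom_injective (quadFormPlus_lam m) h)

theorem not_law_POmegaOdd {w : FreeGroup ℕ} (k : ℕ)
    (h : NC ⁅w, FreeGroup.of k⁆ (Matrix.GeneralLinearGroup (Fin m) F)) :
    ∃ f : ℕ → Cfsg.POmega F (Cfsg.quadFormOdd m F), FreeGroup.lift f w ≠ 1 :=
  not_law_POmega _ k (NC_isometryGroup _
    (blockHom (1 : Matrix.GeneralLinearGroup (Fin m) F →* Matrix Unit Unit F) lamHom)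
    (blockHom_injective_right _ _ lamHom_injective) (quadFormOdd_lam m) h)

theorem not_law_POmegaMinus {w : FreeGroup ℕ} (k : ℕ) (a b : F)
    (h : NC ⁅w, FreeGroup.of k⁆ (Matrix.GeneralLinearGroup (Fin m) F)) :
    ∃ f : ℕ → Cfsg.POmega F (Cfsg.quadFormMinus m F a b), FreeGroup.lift f w ≠ 1 :=
  not_law_POmega _ k (NC_isometryGroup _
    (blockHom lamHom (1 : Matrix.GeneralLinearGroup (Fin m) F →* Matrix (Fin 2) (Fin 2) F))
    (blockHom_injective_left _ _ lamHom_injective) (quadFormMinus_lam m a b) h)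

theorem not_law_PSp {w : FreeGroup ℕ} (k : ℕ)
    (h : NC ⁅w, FreeGroup.of k⁆ (Matrix.GeneralLinearGroup (Fin m) F)) :
    ∃ f : ℕ → Cfsg.PSp m F, FreeGroup.lift f w ≠ 1 := by
  let φ : Matrix.GeneralLinearGroup (Fin m) F →* Matrix.symplecticGroup (Fin m) F :=
    { toFun := fun g => ⟨lamHom g, lamHom_mem_symplectic g⟩
      map_one' := Subtype.ext (map_one lamHom)
      map_mul' := fun a b => Subtype.ext (map_mul lamHom a b) }
  have hφ : Function.Injective φ := by
    intro a b hab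
    apply lamHom_injective
    exact congrArg Subtype.val hab
  exact not_law_quotient_center k (NC.not_law (h.map φ hφ))

/-- commutators of `GL_n` lie in `SL_n`. -/
theorem exists_SL_of_commutator {n : Type*} [Fintype n] [DecidableEq n]
    (x y : Matrix.GeneralLinearGroup n F) :
    ∃ s : Matrix.SpecialLinearGroup n F, Matrix.SpecialLinearGroup.toGL s = ⁅x, y⁆ := by
  have hdet : Matrix.GeneralLinearGroup.det ⁅x, y⁆ = 1 := by
    rw [map_commutatorElement, commutatorElement_eq_one_iff_mul_comm, mul_comm]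
  refine ⟨⟨(⁅x, y⁆ : Matrix.GeneralLinearGroup n F), ?_⟩, ?_⟩
  · have := congrArg Units.val hdet
    rwa [Matrix.GeneralLinearGroup.val_det_apply, Units.val_one] at this
  · apply Units.ext; rfl

theorem not_law_PSL {w : FreeGroup ℕ} (k : ℕ)
    (h : NC ⁅w, FreeGroup.of k⁆ (Matrix.GeneralLinearGroup (Fin m) F)) :
    ∃ f : ℕ → Matrix.ProjectiveSpecialLinearGroup (Fin m) F, FreeGroup.lift f w ≠ 1 := by
  refine not_law_quotient_center k ?_
  obtain ⟨a, b, hab⟩ := h
  choose s hs using fun i => exists_SL_of_commutator (a i) (b i)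
  refine ⟨s, ?_⟩
  intro h1
  apply hab
  have := congrArg Matrix.SpecialLinearGroup.toGL h1
  rw [map_lift, map_one] at this
  simpa only [hs] using this

/-- Elements of `GL_n` preserving the Hermitian form: commutators lie in `SU_n`. -/
theorem not_law_PSU {w : FreeGroup ℕ} (k : ℕ) (q : ℕ)
    (a b : ℕ → Matrix.GeneralLinearGroup (Fin m) F)
    (ha : ∀ i u v, Cfsg.hermForm m F q ((a i : Matrix (Fin m) (Fin m) F) *ᵥ u)
      ((a i : Matrix (Fin m) (Fin m) F) *ᵥ v) = Cfsg.hermForm m F q u v)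
    (hb : ∀ i u v, Cfsg.hermForm m F q ((b i : Matrix (Fin m) (Fin m) F) *ᵥ u)
      ((b i : Matrix (Fin m) (Fin m) F) *ᵥ v) = Cfsg.hermForm m F q u v)
    (hab : FreeGroup.lift (fun i => ⁅a i, b i⁆) ⁅w, FreeGroup.of k⁆ ≠ 1) :
    ∃ f : ℕ → Cfsg.PSU m F q, FreeGroup.lift f w ≠ 1 := by
  refine not_law_quotient_center k ?_
  set Ug : Subgroup (Matrix.GeneralLinearGroup (Fin m) F) :=
    Cfsg.preserving (Units.coeHom (Matrix (Fin m) (Fin m) F)) (Cfsg.hermForm m F q) with hUg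
  have hmem : ∀ i, ⁅a i, b i⁆ ∈ Ug := by
    intro i
    have h1 : a i ∈ Ug := ha i
    have h2 : b i ∈ Ug := hb i
    rw [commutatorElement_def]
    exact mul_mem (mul_mem (mul_mem h1 h2) (inv_mem h1)) (inv_mem h2)
  choose s hs using fun i => exists_SL_of_commutator (a i) (b i)
  have hsu : ∀ i, s i ∈ Cfsg.SU m F q := by
    intro i u v
    have := hmem i u v
    rw [← hs i] at this
    exact this
  refine ⟨fun i => ⟨s i, hsu i⟩, ?_⟩
  intro h1
  apply hab
  have := congrArg (Matrix.SpecialLinearGroup.toGL.comp (Cfsg.SU m F q).subtype) h1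
  rw [map_lift, map_one] at this
  simpa only [MonoidHom.comp_apply, Subgroup.subtype_apply, hs] using this

end Forms

section Card

theorem card_quotient_center_le {G : Type*} [Group G] {ι F : Type*} [Fintype ι] [Fintype F]
    (j : G → Matrix ι ι F) (hj : Function.Injective j) :
    Nat.card (G ⧸ Subgroup.center G) ≤ Fintype.card F ^ (Fintype.card ι * Fintype.card ι) := by
  classical
  have : Finite G := Finite.of_injective j hj
  calc Nat.card (G ⧸ Subgroup.center G) ≤ Nat.card G :=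
        Nat.card_le_card_of_surjective _ (QuotientGroup.mk_surjective)
    _ ≤ Nat.card (Matrix ι ι F) := Nat.card_le_card_of_injective j hj
    _ = Fintype.card F ^ (Fintype.card ι * Fintype.card ι) := by
        rw [Nat.card_eq_fintype_card]
        change Fintype.card (ι → ι → F) = _
        rw [Fintype.card_fun, Fintype.card_fun, ← pow_mul]

end Card

end Cfsg.Agent.Lib.Helper39
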