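import Mathlib
import Cfsg.Prelude.Def_Classical
import Cfsg.Agent.Lib.Helper39.Laws.Families

set_option autoImplicit false

namespace Cfsg.Agent.Lib.Helper39

open scoped commutatorElement Matrix
open Cfsg.Agent.S2353

section Herm

variable {F : Type*} [Field F] {n q : ℕ}

theorem herm_add_smul_left (u d v : Fin n → F) (c : F) :
    Cfsg.hermForm n F q (u + c • d) v = Cfsg.hermForm n F q u v + c * Cfsg.hermForm n F q d v := by
  simp only [Cfsg.hermForm, Pi.add_apply, Pi.smul_apply, smul_eq_mul, add_mul,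
    Finset.sum_add_distrib, Finset.mul_sum, mul_assoc]

theorem herm_add_smul_right (hadd : ∀ x y : F, (x + y) ^ q = x ^ q + y ^ q)
    (u v d : Fin n → F) (c : F) :
    Cfsg.hermForm n F q u (v + c • d) =
      Cfsg.hermForm n F q u v + c ^ q * Cfsg.hermForm n F q u d := by
  simp only [Cfsg.hermForm, Pi.add_apply, Pi.smul_apply, smul_eq_mul, hadd, mul_pow, mul_add,
    Finset.sum_add_distrib, Finset.mul_sum]
  congr 1
  apply Finset.sum_congr rfl
  intro i _
  ring

theorem herm_conj (hq : q ≠ 0) (hadd : ∀ x y : F, (x + y) ^ q = x ^ q + y ^ q)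
    (hqq : ∀ x : F, (x ^ q) ^ q = x) (u v : Fin n → F) :
    (Cfsg.hermForm n F q u v) ^ q = Cfsg.hermForm n F q v u := by
  let σ : F →+* F :=
    { toFun := fun x => x ^ q
      map_one' := one_pow q
      map_mul' := fun x y => mul_pow x y q
      map_zero' := zero_pow hq
      map_add' := hadd }
  change σ (Cfsg.hermForm n F q u v) = _
  simp only [Cfsg.hermForm, map_sum, map_mul]
  apply Finset.sum_congr rfl
  intro i _
  change (u i) ^ q * ((v i) ^ q) ^ q = _
  rw [hqq, mul_comm]

/-- unitary quasi-reflections. -/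
theorem herm_quasi_reflection (hq : q ≠ 0) (hadd : ∀ x y : F, (x + y) ^ q = x ^ q + y ^ q)
    (hqq : ∀ x : F, (x ^ q) ^ q = x) (d : Fin n → F) (c : F)
    (hc : c + c ^ q + c * c ^ q * Cfsg.hermForm n F q d d = 0) (u v : Fin n → F) :
    Cfsg.hermForm n F q (u + (c * Cfsg.hermForm n F q u d) • d)
      (v + (c * Cfsg.hermForm n F q v d) • d) = Cfsg.hermForm n F q u v := by
  rw [herm_add_smul_left, herm_add_smul_right hadd, herm_add_smul_right hadd, mul_pow,
    herm_conj hq hadd hqq]
  linear_combination (Cfsg.hermForm n F q u d * Cfsg.hermForm n F q d v) * hc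

theorem herm_single_left (i : Fin n) (a : F) (v : Fin n → F) :
    Cfsg.hermForm n F q (Pi.single i a) v = a * (v i) ^ q := by
  classical
  rw [Cfsg.hermForm, Finset.sum_eq_single i]
  · simp
  · intro j _ hj
    simp [Pi.single_eq_of_ne hj]
  · intro h; exact absurd (Finset.mem_univ i) h

end Herm

section Pair

variable {F : Type*} [Field F] {n q : ℕ}

/-- the matrix with columns `e`, `f`. -/
def pairB (e f : Fin n → F) : Matrix (Fin n) (Fin 2) F := Matrix.of fun i k => ![e i, f i] k

/-- the matrix of the dual functionals. -/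
def pairΦ (q : ℕ) (e f : Fin n → F) : Matrix (Fin 2) (Fin n) F :=
  Matrix.of fun k j => ![-(f j) ^ q, -(e j) ^ q] k

theorem pair_mul (e f : Fin n → F) (hee : Cfsg.hermForm n F q e e = 0)
    (hff : Cfsg.hermForm n F q f f = 0) (hef : Cfsg.hermForm n F q e f = -1)
    (hfe : Cfsg.hermForm n F q f e = -1) : pairΦ q e f * pairB e f = 1 := by
  simp only [Cfsg.hermForm] at hee hff hef hfe
  ext k l
  fin_cases k <;> fin_cases l <;>
    simp only [pairΦ, pairB, Matrix.mul_apply, Matrix.of_apply, Fin.zero_eta, Fin.mk_one,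
      Matrix.cons_val_zero, Matrix.cons_val_one, neg_mul, Finset.sum_neg_distrib,
      Matrix.one_apply_eq, ne_eq, zero_ne_one, one_ne_zero, not_false_eq_true,
      Matrix.one_apply_ne]
  · rw [neg_eq_iff_eq_neg, ← hef]; exact Finset.sum_congr rfl fun i _ => mul_comm _ _
  · rw [neg_eq_zero, ← hff]; exact Finset.sum_congr rfl fun i _ => mul_comm _ _
  · rw [neg_eq_zero, ← hee]; exact Finset.sum_congr rfl fun i _ => mul_comm _ _
  · rw [neg_eq_iff_eq_neg, ← hfe]; exact Finset.sum_congr rfl fun i _ => mul_comm _ _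

theorem pairΦ_mulVec (e f v : Fin n → F) :
    pairΦ q e f *ᵥ v = ![-Cfsg.hermForm n F q v f, -Cfsg.hermForm n F q v e] := by
  ext k
  fin_cases k <;>
    simp only [pairΦ, Matrix.mulVec, dotProduct, Matrix.of_apply, Fin.zero_eta, Fin.mk_one,
      Matrix.cons_val_zero, Matrix.cons_val_one, neg_mul, Finset.sum_neg_distrib, Cfsg.hermForm]
  · congr 1; exact Finset.sum_congr rfl fun i _ => mul_comm _ _
  · congr 1; exact Finset.sum_congr rfl fun i _ => mul_comm _ _

theorem pairB_mulVec (e f : Fin n → F) (x : Fin 2 → F) :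
    pairB e f *ᵥ x = x 0 • e + x 1 • f := by
  ext i
  simp [pairB, Matrix.mulVec, dotProduct, Fin.sum_univ_two, mul_comm]

theorem ge_lo_mulVec (e f : Fin n → F) (h : pairΦ q e f * pairB e f = 1) (s : F)
    (v : Fin n → F) :
    geHom (pairB e f) (pairΦ q e f) h (lo s : Matrix (Fin 2) (Fin 2) F) *ᵥ v =
      v + ((-s) * Cfsg.hermForm n F q v f) • f := by
  rw [geHom_mulVec, pairΦ_mulVec, pairB_mulVec]
  congr 1
  simp [lo, Matrix.mulVec, dotProduct, Fin.sum_univ_two, Matrix.one_fin_two]

theorem ge_swap_mulVec (hadd : ∀ x y : F, (x + y) ^ q = x ^ q + y ^ q)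
    (hneg : (-1 : F) ^ q = -1)
    (e f : Fin n → F) (h : pairΦ q e f * pairB e f = 1) (v : Fin n → F) :
    geHom (pairB e f) (pairΦ q e f) h
      ((swapJ : Matrix.GeneralLinearGroup (Fin 2) F) : Matrix (Fin 2) (Fin 2) F) *ᵥ v =
      v + ((-1) * Cfsg.hermForm n F q v (e + (-1 : F) • f)) • (e + (-1 : F) • f) := by
  rw [geHom_mulVec, pairΦ_mulVec, pairB_mulVec, herm_add_smul_right hadd, hneg]
  congr 1
  ext i
  simp [swapJ, Matrix.mulVec, dotProduct, Fin.sum_univ_two, Matrix.one_fin_two]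
  ring

end Pair

end Cfsg.Agent.Lib.Helper39
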