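import Mathlib
import Cfsg.Prelude.Def_Classical
import Cfsg.Agent.Lib.Helper39.Laws.Unitary

set_option autoImplicit false

namespace Cfsg.Agent.Lib.Helper39

open scoped commutatorElement Matrix
open Cfsg.Agent.S2353 Polynomial

section Field

variable {F : Type*} [Field F] [Fintype F] {q : ℕ}

theorem frob_add (hF : Fintype.card F = q ^ 2) (x y : F) : (x + y) ^ q = x ^ q + y ^ q := by
  obtain ⟨p, hp⟩ := CharP.exists F
  obtain ⟨k, hpp, hk⟩ := FiniteField.card F p
  have : Fact p.Prime := ⟨hpp⟩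
  have hdvd : q ∣ p ^ (k : ℕ) := by
    rw [← hk, hF]; exact Dvd.intro_left (q ^ 1) (by ring)
  obtain ⟨j, -, rfl⟩ := (Nat.dvd_prime_pow hpp).mp hdvd
  exact add_pow_char_pow x y p j

theorem frob_frob (hF : Fintype.card F = q ^ 2) (x : F) : (x ^ q) ^ q = x := by
  rw [← pow_mul, ← pow_two, ← hF, FiniteField.pow_card]

theorem q_ne_zero (hF : Fintype.card F = q ^ 2) : q ≠ 0 := by
  rintro rfl
  have : 0 < Fintype.card F := Fintype.card_pos
  rw [hF] at this
  simp at this

theorem frob_neg_one (hF : Fintype.card F = q ^ 2) : (-1 : F) ^ q = -1 := by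
  have h := frob_add hF (-1 : F) 1
  rw [neg_add_cancel, zero_pow (q_ne_zero hF), one_pow] at h
  linear_combination -h

theorem exists_norm_neg_one (hF : Fintype.card F = q ^ 2) : ∃ l : F, l ^ (q + 1) = -1 := by
  classical
  rcases Nat.even_or_odd q with hq | hq
  · have h2 : ringChar F = 2 := by
      rw [FiniteField.even_card_iff_char_two, hF]
      exact Nat.even_iff.mp (hq.pow_of_ne_zero two_ne_zero)
    have : CharP F 2 := ringChar.of_eq h2
    exact ⟨1, by rw [one_pow, CharTwo.neg_eq]⟩
  · obtain ⟨r, rfl⟩ := hq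
    obtain ⟨g, hg⟩ := IsCyclic.exists_generator (α := Fˣ)
    have hord : orderOf g = (2 * r + 1) ^ 2 - 1 := by
      rw [orderOf_eq_card_of_forall_mem_zpowers hg, Nat.card_eq_fintype_card, Fintype.card_units,
        hF]
    have hr : r ≠ 0 := by
      rintro rfl
      have : 1 < Fintype.card F := Fintype.one_lt_card
      rw [hF] at this
      simp at this
    have e1 : (2 * r + 1) ^ 2 - 1 = (2 * r ^ 2 + 2 * r) + (2 * r ^ 2 + 2 * r) := by
      have : (2 * r + 1) ^ 2 = (2 * r ^ 2 + 2 * r) + (2 * r ^ 2 + 2 * r) + 1 := by ring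
      omega
    set z : Fˣ := g ^ (2 * r ^ 2 + 2 * r) with hz
    have hz2 : z * z = 1 := by
      rw [hz, ← pow_add, ← e1, ← hord, pow_orderOf_eq_one]
    have hz1 : z ≠ 1 := by
      apply pow_ne_one_of_lt_orderOf
      · positivity
      · rw [hord, e1]
        have : 0 < 2 * r ^ 2 + 2 * r := by positivity
        omega
    have hzF : (z : F) = -1 := by
      have h1 : (z : F) * (z : F) = 1 := by rw [← Units.val_mul, hz2, Units.val_one]
      rcases mul_self_eq_one_iff.mp h1 with h | h
      · exact absurd (Units.ext h) hz1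
      · exact h
    refine ⟨((g ^ r : Fˣ) : F), ?_⟩
    rw [← Units.val_pow_eq_pow_val, ← pow_mul, ← hzF, hz]
    congr 2
    ring

end Field

section Poly

variable {F : Type*} [Field F]

theorem degree_mul_pos {A B : F[X]} (hA : 0 < A.degree) (hB : B ≠ 0) : 0 < (A * B).degree := by
  have hA0 : A ≠ 0 := by rintro rfl; simp at hA
  rw [degree_mul, degree_eq_natDegree hA0, degree_eq_natDegree hB]
  rw [degree_eq_natDegree hA0] at hA
  norm_cast at hA ⊢
  omega

theorem degree_X_sub_pow {q : ℕ} (hq : 2 ≤ q) : 0 < ((X : F[X]) - X ^ q).degree := by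
  rw [degree_sub_eq_right_of_degree_lt]
  · rw [degree_X_pow]; exact_mod_cast (by omega : 0 < q)
  · rw [degree_X_pow, degree_X]; exact_mod_cast (by omega : 1 < q)

theorem natDegree_X_sub_pow_le {q : ℕ} (hq : 2 ≤ q) : ((X : F[X]) - X ^ q).natDegree ≤ q := by
  refine le_trans (natDegree_sub_le _ _) ?_
  rw [natDegree_X, natDegree_X_pow]
  omega

end Poly

end Cfsg.Agent.Lib.Helper39
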