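import Mathlib
import Cfsg.Prelude.Def_Classical
import Cfsg.Agent.Lib.Helper39.Laws.Unitary2

set_option autoImplicit false

namespace Cfsg.Agent.Lib.Helper39

open scoped commutatorElement Matrix
open Cfsg.Agent.S2353 Polynomial

theorem herm_add_left {F : Type*} [Field F] {n q : ℕ} (u u' v : Fin n → F) :
    Cfsg.hermForm n F q (u + u') v = Cfsg.hermForm n F q u v + Cfsg.hermForm n F q u' v := by
  simp only [Cfsg.hermForm, Pi.add_apply, add_mul, Finset.sum_add_distrib]

/-- existence of a hyperbolic pair for the standard Hermitian form in dimension `≥ 3`. -/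
theorem exists_hyperbolic_pair {F : Type*} [Field F] [Fintype F] {n q : ℕ}
    (hF : Fintype.card F = q ^ 2) (hn : 3 ≤ n) :
    ∃ e f : Fin n → F, Cfsg.hermForm n F q e e = 0 ∧ Cfsg.hermForm n F q f f = 0 ∧
      Cfsg.hermForm n F q e f = -1 ∧ Cfsg.hermForm n F q f e = -1 := by
  classical
  obtain ⟨l, hl⟩ := exists_norm_neg_one hF
  have hq0 := q_ne_zero hF
  have hl' : l * l ^ q = -1 := by rw [← hl, pow_succ, mul_comm]
  set i0 : Fin n := ⟨0, by omega⟩ with hi0
  set i1 : Fin n := ⟨1, by omega⟩ with hi1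
  set i2 : Fin n := ⟨2, by omega⟩ with hi2
  have h01 : i0 ≠ i1 := by simp [hi0, hi1]
  have h02 : i0 ≠ i2 := by simp [hi0, hi2]
  have h12 : i1 ≠ i2 := by simp [hi1, hi2]
  refine ⟨Pi.single i0 1 + Pi.single i1 l, Pi.single i1 l + Pi.single i2 1, ?_, ?_, ?_, ?_⟩
  · rw [herm_add_left, herm_single_left, herm_single_left]
    simp only [Pi.add_apply, Pi.single_eq_same, Pi.single_eq_of_ne h01, Pi.single_eq_of_ne h01.symm,
      add_zero, zero_add, one_pow, one_mul, hl']
    ring
  · rw [herm_add_left, herm_single_left, herm_single_left]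
    simp only [Pi.add_apply, Pi.single_eq_same, Pi.single_eq_of_ne h12, Pi.single_eq_of_ne h12.symm,
      add_zero, zero_add, one_pow, one_mul, hl']
    ring
  · rw [herm_add_left, herm_single_left, herm_single_left]
    simp only [Pi.add_apply, Pi.single_eq_same, Pi.single_eq_of_ne h01, Pi.single_eq_of_ne h02,
      Pi.single_eq_of_ne h12, add_zero, zero_pow hq0, mul_zero, zero_add, hl']
  · rw [herm_add_left, herm_single_left, herm_single_left]
    simp only [Pi.add_apply, Pi.single_eq_same, Pi.single_eq_of_ne h01.symm,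
      Pi.single_eq_of_ne h02.symm, Pi.single_eq_of_ne h12.symm, add_zero, zero_pow hq0, mul_zero,
      zero_add, hl']

theorem not_law_PSU_large (w : FreeGroup ℕ) (k : ℕ) (hv : ⁅w, FreeGroup.of k⁆ ≠ 1) :
    ∃ Bu : ℕ, ∀ (F : Type*) [Field F] [Fintype F] (n q : ℕ), Fintype.card F = q ^ 2 → 3 ≤ n →
      Bu ≤ q → ∃ f : ℕ → Cfsg.PSU n F q, FreeGroup.lift f w ≠ 1 := by
  set v := ⁅w, FreeGroup.of k⁆ with hvdef
  set C : ℕ := (v.toWord.map (fun x => 2 * (x.1 + 1))).sum with hC
  refine ⟨2 * C + 2, ?_⟩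
  intro F _ _ n q hF hn hq
  have hq0 := q_ne_zero hF
  have hadd := frob_add hF
  have hqq := frob_frob hF
  have hneg := frob_neg_one hF
  have hq2 : 2 ≤ q := by omega
  obtain ⟨e, f, hee, hff, hef, hfe⟩ := exists_hyperbolic_pair hF hn
  have h := pair_mul e f hee hff hef hfe
  set ρ := geGL (pairB e f) (pairΦ q e f) h with hρ
  obtain ⟨d, hd0, hdeg, hev⟩ := key2 (F := F) (fun i => (X - X ^ q) * X ^ ((q + 1) * i))
    (fun i => (q + 1) * (i + 1))
    (fun i => degree_mul_pos (degree_X_sub_pow hq2) (pow_ne_zero _ X_ne_zero))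
    (fun i j hij => by
      rw [← mul_sub]
      refine degree_mul_pos (degree_X_sub_pow hq2) ?_
      rw [sub_ne_zero]
      intro heq
      have := congrArg natDegree heq
      rw [natDegree_X_pow, natDegree_X_pow] at this
      exact hij (Nat.eq_of_mul_eq_mul_left (Nat.succ_pos q) this))
    (fun i => by
      refine le_trans natDegree_mul_le ?_
      rw [natDegree_X_pow]
      have := natDegree_X_sub_pow_le (F := F) hq2
      have e1 : (q + 1) * (i + 1) = (q + 1) * i + q + 1 := by ring
      omega) v hv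
  have hsum : (v.toWord.map (fun x => (q + 1) * (x.1 + 1) + (q + 1) * (x.1 + 1))).sum =
      (q + 1) * C := by
    rw [hC, ← List.sum_map_mul_left]
    congr 1
    apply List.map_congr_left
    intro x _
    ring
  rw [hsum] at hdeg
  have hlt : (q + 1) * C < Fintype.card F := by
    rw [hF, pow_two]
    calc (q + 1) * C ≤ (q + q) * C := Nat.mul_le_mul_right _ (by omega)
      _ = q * (2 * C) := by ring
      _ < q * q := Nat.mul_lt_mul_of_pos_left (by omega) (by omega)
  obtain ⟨t, ht⟩ := exists_eval_ne_zero_of_natDegree_lt_card d hd0 (by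
    rw [Cardinal.mk_fintype]
    exact_mod_cast lt_of_le_of_lt hdeg hlt)
  have hne := hev t ht
  set s : ℕ → F := fun i => ((X - X ^ q) * X ^ ((q + 1) * i) : F[X]).eval t with hs
  have hsq : ∀ i, (-s i) ^ q = s i := by
    intro i
    have h1 : s i = (t + (-1) * t ^ q) * (t * t ^ q) ^ i := by
      simp only [hs, eval_mul, eval_sub, eval_X, eval_pow]
      rw [pow_mul, pow_succ t q]
      ring
    have h2 : (t * t ^ q) ^ q = t * t ^ q := by rw [mul_pow, hqq, mul_comm]
    have h3 : (-s i) = (-1) * s i := by ring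
    rw [h3, mul_pow, hneg, h1, mul_pow, hadd, mul_pow, hneg, hqq, ← pow_mul, mul_comm i q, pow_mul,
      h2]
    ring
  refine not_law_PSU k q (fun i => ρ (lo (s i))) (fun _ => ρ swapJ) ?_ ?_ ?_
  · intro i u x
    rw [hρ, geGL_coe, ge_lo_mulVec, ge_lo_mulVec]
    refine herm_quasi_reflection hq0 hadd hqq f (-s i) ?_ u x
    rw [hsq, hff]
    ring
  · intro i u x
    rw [hρ, geGL_coe, ge_swap_mulVec hadd hneg, ge_swap_mulVec hadd hneg]
    refine herm_quasi_reflection hq0 hadd hqq _ (-1) ?_ u x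
    rw [herm_add_smul_left, herm_add_smul_right hadd, herm_add_smul_right hadd, hneg, hee, hff,
      hef, hfe]
    ring
  · have : (fun i => ⁅ρ (lo (s i)), ρ swapJ⁆) = fun i => ρ ⁅lo (s i), swapJ⁆ := by
      funext i; rw [map_commutatorElement]
    rw [this, ← map_lift]
    intro h1
    apply hne
    apply geGL_injective (pairB e f) (pairΦ q e f) h
    rw [map_one]
    exact h1

end Cfsg.Agent.Lib.Helper39
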